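import Cfsg.Agent.Lib.NG.Tri

/-! The Bray–Wilson–Wilson word map has a non-trivial invariant set in each group of Thompson's list. -/

set_option autoImplicit false

namespace Cfsg.Lib.NG

open Subgroup Matrix Cfsg.Lib.PSL2
open scoped MatrixGroups

variable {G G' : Type*} [Group G] [Group G']

/-- The step `s ↦ [s ^ y, s⁻¹]`. -/
def bww (y s : G) : G := y⁻¹ * s * y * s⁻¹ * (y⁻¹ * s * y)⁻¹ * s⁻¹⁻¹

theorem map_bww (f : G →* G') (y s : G) : f (bww y s) = bww (f y) (f s) := by simp [bww]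

/-- Some step map has a non-empty invariant set avoiding the identity. -/
def BWW (G : Type*) [Group G] : Prop := ∃ (y : G) (A : Set G), A.Nonempty ∧ 1 ∉ A ∧ ∀ s ∈ A, bww y s ∈ A

theorem bww_of_map (f : G →* G') (y : G) (A : Set G) (h1 : A.Nonempty) (h2 : ∀ s ∈ A, f s ≠ 1)
    (h3 : ∀ s ∈ A, bww y s ∈ A) : BWW G' :=
  ⟨f y, f '' A, h1.image f, fun ⟨s, hs, e⟩ => h2 s hs e, by
    rintro _ ⟨s, hs, rfl⟩
    exact ⟨_, h3 s hs, map_bww f y s⟩⟩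

theorem BWW.of_equiv (e : G ≃* G') (h : BWW G') : BWW G := by
  obtain ⟨y, A, h1, h2, h3⟩ := h
  exact bww_of_map e.symm.toMonoidHom y A h1 (fun s hs h => h2 ((map_eq_one_iff _ e.symm.injective).1 h ▸ hs)) h3

theorem bww_L33 : BWW SL(3, ZMod 3) := by
  refine ⟨⟨!![1, 2, 0; 0, 2, 0; 0, 0, 2], by decide⟩, {⟨!![2, 2, 2; 0, 1, 2; 2, 1, 2], by decide⟩,
    ⟨!![0, 2, 1; 2, 1, 1; 0, 1, 1], by decide⟩, ⟨!![2, 0, 0; 0, 1, 2; 1, 0, 2], by decide⟩,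
    ⟨!![1, 1, 0; 1, 0, 1; 0, 1, 1], by decide⟩}, ⟨_, Or.inl rfl⟩, ?_, ?_⟩
  · rintro (h | h | h | h) <;> exact absurd (congrArg (· 1 2) h) (by decide)
  · rintro _ (rfl | rfl | rfl | rfl)
    exacts [Or.inr (Or.inl (Subtype.ext (by decide +kernel))), Or.inr (Or.inr (Or.inl (Subtype.ext (by decide +kernel)))),
      Or.inr (Or.inr (Or.inr (Subtype.ext (by decide +kernel)))), Or.inl (Subtype.ext (by decide +kernel))]

section PSL
variable {F : Type*} [Field F]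

/-- The trace. -/
def trS (x : SL(2, F)) : F := (x : Matrix (Fin 2) (Fin 2) F).trace

theorem trS_bww (x y : SL(2, F)) (hy : trS y = 0) :
    trS (bww y x) = (trS x ^ 2 + trS (y * x) ^ 2 - 4) * trS (y * x) ^ 2 + 2 ∧
    trS (y * bww y x) = -(trS x ^ 2 + trS (y * x) ^ 2 - 4) * trS (y * x) * trS x := by
  have hx := x.det_coe
  have h := y.det_coe
  simp only [trS, bww, inv_inv, _root_.mul_inv_rev, Matrix.SpecialLinearGroup.coe_mul,
    Matrix.SpecialLinearGroup.coe_inv] at *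
  simp only [trace_fin_two, det_fin_two, mul_apply, Fin.sum_univ_two, adjugate_fin_two,
    of_apply, cons_val', cons_val_zero, cons_val_one, cons_val_fin_one] at *
  generalize x.1 0 0 = a, x.1 0 1 = b, x.1 1 0 = c, x.1 1 1 = d, y.1 0 0 = p, y.1 0 1 = q, y.1 1 0 = r,
    y.1 1 1 = s at *
  obtain rfl : s = -p := by linear_combination hy
  constructor <;> grind

/-- The invariant condition on the traces of `x` and `y x`. -/
def BInv (s u : F) : Prop := s ≠ 0 ∧ u ≠ 0 ∧ s ^ 2 + u ^ 2 - 4 ≠ 0 ∧ ∀ z, z ≠ 0 → (s ^ 2 + u ^ 2 - 4) * z ^ 2 + 2 ≠ 0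

theorem BInv.step {s u : F} (h : BInv s u) :
    BInv ((s ^ 2 + u ^ 2 - 4) * u ^ 2 + 2) (-(s ^ 2 + u ^ 2 - 4) * u * s) := by
  obtain ⟨h1, h2, h3, h4⟩ := h
  have h5 := mul_ne_zero (h4 1 one_ne_zero) h2
  have h6 : ((s ^ 2 + u ^ 2 - 4) * u ^ 2 + 2) ^ 2 + (-(s ^ 2 + u ^ 2 - 4) * u * s) ^ 2 - 4 =
      (s ^ 2 + u ^ 2 - 4) * (((s ^ 2 + u ^ 2 - 4) * 1 ^ 2 + 2) * u) ^ 2 := by ring
  refine ⟨h4 u h2, mul_ne_zero (mul_ne_zero (neg_ne_zero.2 h3) h2) h1, h6 ▸ mul_ne_zero h3 (pow_ne_zero 2 h5),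
    fun z hz => ?_⟩
  rw [h6, mul_assoc, ← mul_pow]
  exact h4 _ (mul_ne_zero h5 hz)

theorem exists_sum_sq [Finite F] (h2 : (2 : F) ≠ 0) {t c : F} (h0 : t ≠ 0) (ht : t ^ 4 ≠ 1) (hc : c ≠ 0) :
    ∃ s u : F, s ≠ 0 ∧ u ≠ 0 ∧ s ^ 2 + u ^ 2 = c := by
  have h3 : 1 + t ^ 2 ≠ 0 := fun e => ht (by linear_combination (t ^ 2 - 1) * e)
  have h4 : 1 - t ^ 2 ≠ 0 := fun e => ht (by linear_combination (-t ^ 2 - 1) * e)
  have key : ∀ d : F, d ^ 2 = c → ∃ s u : F, s ≠ 0 ∧ u ≠ 0 ∧ s ^ 2 + u ^ 2 = c := fun d hd => by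
    have : d ≠ 0 := by rintro rfl; exact hc (by simpa using hd.symm)
    exact ⟨d * (1 - t ^ 2) / (1 + t ^ 2), d * (2 * t) / (1 + t ^ 2), by simp [*], by simp [*],
      by rw [← hd]; field_simp; ring⟩
  letI := Fintype.ofFinite F
  open Polynomial in
  obtain ⟨a, b, e⟩ := FiniteField.exists_root_sum_quadratic
    (f := C 1 * X ^ 2 + C 0 * X + C 0) (g := C 1 * X ^ 2 + C 0 * X + C (-c))
    (degree_quadratic one_ne_zero) (degree_quadratic one_ne_zero) (by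
      rw [← Nat.card_eq_fintype_card]; exact Nat.odd_iff.1 (two_ne_zero_iff_odd.1 h2))
  replace e : a ^ 2 + b ^ 2 = c := by simp at e; linear_combination e
  by_cases ha : a = 0
  · exact key b (by simpa [ha] using e)
  by_cases hb : b = 0
  · exact key a (by simpa [hb] using e)
  · exact ⟨a, b, ha, hb, e⟩

theorem exists_not_root [Finite F] {n : ℕ} (hn : n ≠ 0) (h : n + 1 < Nat.card F) : ∃ t : F, t ≠ 0 ∧ t ^ n ≠ 1 := by
  by_contra! hc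
  have := Nat.le_of_dvd (Nat.pos_of_ne_zero hn) (IsCyclic.exponent_eq_card (α := Fˣ) ▸
    Monoid.exponent_dvd_of_forall_pow_eq_one fun g => Units.ext (by simpa using hc g g.ne_zero))
  rw [Nat.card_units] at this
  omega

theorem exists_bInv [Finite F] (h4 : 4 ≤ Nat.card F) (h5 : Nat.card F ≠ 5) :
    ∃ s u : F, BInv s u ∧ ((2 : F) = 0 → s ≠ u) := by
  by_cases h2 : (2 : F) = 0
  · obtain ⟨t, h0, h1⟩ := exists_not_root (F := F) one_ne_zero (by omega)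
    have h3 : 1 ^ 2 + t ^ 2 - 4 ≠ 0 := fun e => h1 (by
      have : (t - 1) ^ 2 = 0 := by linear_combination e + (2 - t) * h2
      linear_combination pow_eq_zero_iff two_ne_zero |>.1 this)
    exact ⟨1, t, ⟨one_ne_zero, h0, h3, fun z hz => by
      rw [h2, add_zero]; exact mul_ne_zero h3 (pow_ne_zero 2 hz)⟩, fun _ e => h1 (by simp [← e])⟩
  have h6 := Nat.odd_iff.1 (two_ne_zero_iff_odd.1 h2)
  obtain ⟨t, h0, h1⟩ := exists_not_root (F := F) four_ne_zero (by omega)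
  obtain ⟨n, hn, h7⟩ : ∃ n : F, ¬ IsSquare n ∧ n ≠ 2 := by
    obtain ⟨n, hn⟩ := FiniteField.exists_nonsquare (F := F) fun e => h2 (by simpa [e] using ringChar.Nat.cast_ringChar (R := F))
    by_cases h : n = 2
    · refine ⟨n * t ^ 2, fun ⟨r, hr⟩ => hn ⟨r / t, by field_simp; linear_combination hr⟩, fun e => h1 ?_⟩
      have : t ^ 2 = 1 := mul_left_cancel₀ h2 (by rw [← h, e, h, mul_one])
      linear_combination (t ^ 2 + 1) * this
    · exact ⟨n, hn, h⟩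
  obtain ⟨s, u, hs, hu, e⟩ := exists_sum_sq h2 h0 h1 (c := 2 * (2 - n)) (mul_ne_zero h2 (sub_ne_zero.2 h7.symm))
  refine ⟨s, u, ⟨hs, hu, fun e' => hn ⟨0, mul_left_cancel₀ h2 (by linear_combination e - e')⟩, fun z hz e' =>
    hn ⟨z⁻¹, mul_left_cancel₀ (mul_ne_zero h2 (pow_ne_zero 2 hz)) ?_⟩⟩, fun e => absurd e h2⟩
  linear_combination z ^ 2 * e - e' - 2 * (z * z⁻¹ + 1) * mul_inv_cancel₀ hz

theorem bww_psl [Finite F] (h4 : 4 ≤ Nat.card F) (h5 : Nat.card F ≠ 5) : BWW PSL(2, F) := by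
  obtain ⟨s, u, h1, h2⟩ := exists_bInv h4 h5
  obtain ⟨y, x, h3, rfl, rfl⟩ := exists_sl_traces h2
  refine bww_of_map toL y {x | BInv (trS x) (trS (y * x))} ⟨x, h1⟩ (fun z hz e => hz.2.1 ?_) fun z hz => ?_
  · rcases toL_eq_one_iff.1 e with rfl | rfl <;> simp [trS, h3]
  · show BInv _ _
    rw [(trS_bww z y h3).1, (trS_bww z y h3).2]
    exact BInv.step hz

end PSL

theorem bww_step_sz {F : Type*} [Field F] [Finite F] (M : Sz.Model F G) {m : ℕ} (hm : 1 ≤ m)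
    (hF : Nat.card F = 2 ^ (2 * m + 1)) (ht : ∃ t : F, t ≠ 0 ∧ t ≠ 1) {y x : G} (hy : y ∈ M.Z) (y1 : y ≠ 1)
    (h1 : Odd (orderOf x)) (h2 : x • M.inf ≠ M.inf) (h3 : x * y * (x * y) ≠ 1) :
    Odd (orderOf (bww y x)) ∧ bww y x • M.inf ≠ M.inf ∧ bww y x * y * (bww y x * y) ≠ 1 := by
  have := M.finite
  obtain ⟨y0, y2⟩ := M.mem_Z_iff.1 hy
  have yU := M.Z_le_U hy
  have yi : y⁻¹ = y := inv_eq_of_mul_eq_one_right y2
  have yc : ∀ v ∈ M.U, v * y = y * v := by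
    obtain ⟨b, rfl⟩ := hy
    rintro _ ⟨c, d, rfl⟩
    exact (M.u_zero_comm b c d).symm
  have sq1 : ∀ g : G, g * y * g⁻¹ * (g * y * g⁻¹) = 1 := fun g => by rw [conj_mul, y2, mul_one, mul_inv_cancel]
  have ne1 : ∀ g : G, g * y * g⁻¹ ≠ 1 := fun g => by simpa using y1
  have e0 : bww y x = y * x * y * (y * x)⁻¹ * (x⁻¹ * y * x⁻¹⁻¹) := by
    simp only [bww, _root_.mul_inv_rev, inv_inv, yi, mul_assoc]
  have fix : ∀ g p, (g * y * g⁻¹) • p = p → p = g • M.inf := fun g p h => by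
    rw [← inv_smul_eq_iff]
    exact M.eq_inf_of_mem_U yU y1 (by rwa [mul_smul, mul_smul, smul_eq_iff_eq_inv_smul] at h)
  have k1 : bww y x • M.inf ≠ M.inf := fun e => by
    obtain ⟨v, hv, τ, v', hv', h4, rfl⟩ : ∃ v ∈ M.U, ∃ τ, ∃ v' ∈ M.U, τ * τ = 1 ∧ x = v * τ * v' := by
      obtain ⟨a, b, c, d, μ, rfl⟩ := (M.bruhat x).resolve_left (mt (M.smul_inf_iff x).2 h2)
      exact ⟨_, M.u_mem_U a b, M.w * M.h μ, _, M.conj_mem_U (inv_mem (M.h_mem_B μ)) (M.u_mem_U c d),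
        by rw [M.w_mul_h, M.h_mul_w_sq], by group⟩
    have τi : τ⁻¹ = τ := inv_eq_of_mul_eq_one_right h4
    have h5 : ∀ v ∈ M.U, v • M.inf = M.inf := fun v hv => M.U_le_B hv
    have h6 : τ • M.inf ≠ M.inf := fun e => h2 (by rw [mul_smul, mul_smul, h5 _ hv', e, h5 _ hv])
    have h7 : (τ * y * τ) • M.inf ≠ M.inf := fun e => h6 (fix τ _ (by rwa [τi])).symm
    have h8 : bww y (v * τ * v') = y * v * (τ * y * τ) * (v⁻¹ * y * v'⁻¹) * (τ * y * τ) * v' := by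
      rw [e0, show y * (v * τ * v') * y * (y * (v * τ * v'))⁻¹ = y * v * (τ * (v' * y) * v'⁻¹ * τ⁻¹) * v⁻¹ * y⁻¹ by group,
        show (v * τ * v')⁻¹ * y * (v * τ * v')⁻¹⁻¹ = v'⁻¹ * (τ⁻¹ * (v⁻¹ * y) * v * τ) * v' by group, yc _ hv',
        yc _ (inv_mem hv), τi, yi, ← mul_assoc τ y v⁻¹, ← yc _ (inv_mem hv)]
      group
    have h9 : v⁻¹ * y * v'⁻¹ = 1 := by_contra fun h9 => h7 (M.eq_inf_of_mem_U
      (mul_mem (mul_mem (inv_mem hv) yU) (inv_mem hv')) h9 (by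
        rw [h8, mul_smul, h5 _ hv', mul_smul, mul_smul, mul_smul, smul_eq_iff_eq_inv_smul,
          h5 _ (inv_mem (mul_mem yU hv)), smul_eq_iff_eq_inv_smul] at e
        simpa only [_root_.mul_inv_rev, τi, yi, mul_assoc] using e))
    obtain rfl : v' = v⁻¹ * y := (mul_inv_eq_one.1 h9).symm
    exact h3 (by simp only [mul_assoc, y2, mul_one, inv_mul_cancel_left, ← mul_assoc τ τ, h4, one_mul, mul_inv_cancel])
  have k0 : bww y x ≠ 1 := fun e => k1 (by rw [e, one_smul])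
  have i1 : ∀ a b : G, a * a = 1 → b * b = 1 → a * (a * b) * a⁻¹ = (a * b)⁻¹ ∧ b * (a * b) * b⁻¹ = (a * b)⁻¹ :=
    fun a b ha hb => by
      simp only [_root_.mul_inv_rev, inv_eq_of_mul_eq_one_right ha, inv_eq_of_mul_eq_one_right hb, ← mul_assoc, ha,
        one_mul, mul_assoc _ b b, hb, mul_one, and_self]
  obtain ⟨i2, i3⟩ := i1 _ _ (sq1 (y * x)) (sq1 x⁻¹)
  rw [← e0] at i2 i3
  have k2 : Odd (orderOf (bww y x)) := by
    rcases M.orderOf_dvd (bww y x) with h | h | h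
    · obtain ⟨p, hp⟩ := M.exists_mem_Up_of_pow_four (orderOf_dvd_iff_pow_eq_one.1 h)
      have h4 : ∀ t : G, t * bww y x * t⁻¹ = (bww y x)⁻¹ → t • p = p := fun t e =>
        (M.eq_of_mem_Up (M.conj_mem_Up.2 hp) (by simpa using k0) (e ▸ (inv_mem hp : _ ∈ M.Up p).1)).symm
      have h5 := (fix _ _ (h4 _ i2)).symm.trans (fix _ _ (h4 _ i3))
      have h6 := M.exists_fixed_of_commute (x := x * y) (p := M.inf) (by
        rw [mul_smul, mul_smul, mul_smul, y0, ← mul_smul y, h5, smul_inv_smul]) h3 (mul_assoc _ _ _).symm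
      rw [mul_smul, y0] at h6
      exact absurd h6 h2
    · exact M.odd_card_sub_one.of_dvd_nat h
    · exact M.odd_sq_add_one.of_dvd_nat h
  refine ⟨k2, k1, fun e => h3 ?_⟩
  obtain ⟨A, n, T, hA⟩ := exists_isTorus M hm hF ht k0 k2
  have n0 : y ∈ normalizer (A : Set G) := T.mem_normalizer hA k0 (by
    rw [yi, mul_assoc, eq_inv_of_mul_eq_one_right ((mul_assoc _ _ _).symm.trans e)]; exact inv_mem hA)
  have n1 := mul_mem (mul_mem (inv_mem n0) (T.mem_normalizer hA k0 (i2 ▸ inv_mem hA))) n0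
  rw [show y⁻¹ * (y * x * y * (y * x)⁻¹) * y = x * y * x⁻¹ by group] at n1
  have h4 := T.mul_mem_of_sq (T.mem_normalizer hA k0 (i3 ▸ inv_mem hA)) (sq1 _) (ne1 _) n0 y2 y1
  have h5 := T.mem_of_odd (T.mem_normalizer h4 (fun e => h2 (M.exists_fixed_of_commute y0 y1 (by
    rw [← inv_mul_eq_iff_eq_mul.1 ((mul_assoc _ _ _).symm.trans (mul_inv_eq_one.1 e).symm), inv_inv]))) (by
      convert T.mul_mem_of_sq n0 y2 y1 n1 (sq1 x) (ne1 x) using 1; group)) h1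
  rw [mul_assoc, ← mul_assoc y, ← yi, yi, ← congrArg (y * x * ·) yi, T.inverts n0 y2 y1 h5, mul_inv_cancel]

theorem bww_sz {F : Type*} [Field F] [Finite F] (M : Sz.Model F G) {m : ℕ} (hm : 1 ≤ m)
    (hF : Nat.card F = 2 ^ (2 * m + 1)) (ht : ∃ t : F, t ≠ 0 ∧ t ≠ 1) : BWW G := by
  obtain ⟨x, -, hx, -⟩ := M.exists_tori hm hF
  obtain ⟨b, hb, h1⟩ : ∃ b, b ≠ 0 ∧ x * M.u 0 b * (x * M.u 0 b) ≠ 1 := by
    by_contra! h
    obtain ⟨t, h0, h1⟩ := ht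
    have h2 : ∀ b, b ≠ 0 → M.u 0 b * x = x⁻¹ * M.u 0 b := fun b hb => by
      rw [eq_inv_mul_iff_mul_eq, ← mul_assoc, ← mul_left_inj (M.u 0 b), M.u_zero_sq, mul_assoc, h b hb]
    have h3 : x * (M.u 0 t * M.u 0 1) = M.u 0 t * M.u 0 1 * x := by
      rw [mul_assoc, h2 1 one_ne_zero, ← mul_assoc, ← mul_assoc, mul_left_inj, eq_mul_inv_iff_mul_eq, mul_assoc,
        h2 t h0, mul_inv_cancel_left]
    refine hx.of_commute (fun e => h1 ?_) h3 M.inf (by simp [mul_smul])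
    exact (M.u_inj.1 ((eq_inv_of_mul_eq_one_left e).trans (inv_eq_of_mul_eq_one_right (M.u_zero_sq 1)))).2
  exact ⟨M.u 0 b, {x | Odd (orderOf x) ∧ x • M.inf ≠ M.inf ∧ x * M.u 0 b * (x * M.u 0 b) ≠ 1},
    ⟨x, M.odd_sq_add_one.of_dvd_nat hx.orderOf_dvd, hx _, h1⟩, fun h => h.2.1 (one_smul _ _), fun s hs =>
      bww_step_sz M hm hF ht (M.u_mem_Z b) (fun e => hb (M.u_eq_one.1 e).2) hs.1 hs.2.1 hs.2.2⟩

theorem MinList.bww (h : MinList G) : BWW G := by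
  rcases h with ⟨F, _, _, h, ⟨e⟩⟩ | ⟨F, _, _, m, hm, hF, ⟨M⟩⟩ | ⟨⟨e⟩⟩
  · refine (bww_psl h.four_le fun h5 => ?_).of_equiv e
    rw [h5] at h
    rcases h with ⟨r, hr, h⟩ | ⟨r, hr, -, h⟩ | h
    · exact absurd (h ▸ dvd_pow_self 2 hr.ne_zero : 2 ∣ 5) (by norm_num)
    · exact absurd (h ▸ dvd_pow_self 3 hr.ne_zero : 3 ∣ 5) (by norm_num)
    · omega
  · exact bww_sz M (exists_ne_of_prime hm hF).1 hF (exists_ne_of_prime hm hF).2
  · exact bww_L33.of_equiv e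

end Cfsg.Lib.NG
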