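import Cfsg.Agent.Lib.FGS.Kulakoff2
import Cfsg.Agent.Lib.Core.MinNormal

/-! Groups in which `x ^ n = 1` has exactly `n` solutions: reduction to simple groups and counting lemmas. -/

set_option autoImplicit false

namespace Cfsg.Lib.NG

open Subgroup Cfsg.Lib.BG Cfsg.Lib.Transfer Cfsg.Lib.FGS

universe u
variable {G : Type*} [Group G] [Finite G] {n p : ℕ}

theorem card_dvd_ncard_of_closed (H : Subgroup G) {S : Set G}
    (hS : ∀ x ∈ S, ∀ h ∈ H, ∀ u ∈ invCore H x, h * (x * u) * h⁻¹ ∈ S) : Nat.card H ∣ S.ncard := by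
  let cl : G → Set G := fun x => {y | ∃ h ∈ H, ∃ u ∈ invCore H x, h * (x * u) * h⁻¹ = y}
  have sub : ∀ x, ∀ y ∈ cl x, cl y ⊆ cl x := by
    rintro x _ ⟨h, hh, u, hu, rfl⟩ _ ⟨h', hh', u', hu', rfl⟩
    rw [invCore_conj _ hh, invCore_mul hu, mem_conj] at hu'
    exact ⟨h' * h, mul_mem hh' hh, u * (h⁻¹ * u' * h), mul_mem hu hu', by group⟩
  have symm : ∀ x, ∀ y ∈ cl x, x ∈ cl y := by
    rintro x _ ⟨h, hh, u, hu, rfl⟩
    refine ⟨h⁻¹, inv_mem hh, h * u⁻¹ * h⁻¹, ?_, by group⟩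
    rw [invCore_conj _ hh, invCore_mul hu, conj_mem_conj]
    exact inv_mem hu
  refine dvd_ncard_of_classes cl (fun x _ => ⟨1, one_mem _, 1, one_mem _, by simp⟩) ?_
    (fun x _ y hy => (sub x y hy).antisymm (sub y x (symm x y hy))) fun x _ => ?_
  · rintro x hx _ ⟨h, hh, u, hu, rfl⟩
    exact hS x hx h hh u hu
  · have := PGroup.card_eq_mul_of_fibers (α := H × invCore H x) (β := cl x)
      (fun z => ⟨z.1 * (x * z.2) * (z.1 : G)⁻¹, z.1, z.1.2, z.2, z.2.2, rfl⟩) (Nat.card (invCore H x)) (by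
        rintro ⟨_, h, hh, u, hu, rfl⟩
        refine (Nat.card_congr (Equiv.ofBijective (fun g : invCore H x => ⟨(⟨h * g, mul_mem hh (invCore_le H x g.2)⟩,
          ⟨x⁻¹ * (g : G)⁻¹ * x * (u * g), mul_mem (conj_mem_of_norm' (mem_norm_invCore H x) (inv_mem g.2))
            (mul_mem hu g.2)⟩), Subtype.ext (by simp only; group)⟩) ⟨fun a b hab => ?_, ?_⟩)).symm
        · simpa using congrArg (fun z => (z.1.1 : G)) hab
        · rintro ⟨⟨⟨h', hh'⟩, ⟨u', hu'⟩⟩, e⟩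
          have e' : h' * (x * u') * h'⁻¹ = h * (x * u) * h⁻¹ := congrArg Subtype.val e
          have e2 : h⁻¹ * h' * (x * u') * (h⁻¹ * h')⁻¹ = x * u := by
            calc _ = h⁻¹ * (h' * (x * u') * h'⁻¹) * h := by group
              _ = _ := by rw [e']; group
          refine ⟨⟨h⁻¹ * h', mem_invCore_of_conj (mul_mem (inv_mem hh) hh') hu' hu e2⟩,
            Subtype.ext (Prod.ext (Subtype.ext (by simp)) (Subtype.ext ?_))⟩
          calc x⁻¹ * (h⁻¹ * h')⁻¹ * x * (u * (h⁻¹ * h')) = x⁻¹ * (h⁻¹ * h')⁻¹ * (x * u) * (h⁻¹ * h') := by group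
            _ = u' := by rw [← e2]; group)
    rw [Nat.card_prod] at this
    exact (Nat.eq_of_mul_eq_mul_right Nat.card_pos this).dvd

theorem gcd_dvd_ncard_coset (N : Subgroup G) [hN : N.Normal] (n : ℕ) (c : G ⧸ N) :
    n.gcd (Nat.card N) ∣ {y : G | y ^ n = 1 ∧ (y : G ⧸ N) = c}.ncard := by
  refine (Nat.dvd_iff_prime_pow_dvd_dvd _ _).2 fun p k hp hd => ?_
  haveI := Fact.mk hp
  obtain ⟨H, hH⟩ := Sylow.exists_subgroup_card_pow_prime p (hd.trans (Nat.gcd_dvd_right _ _))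
  have e : Nat.card (H.map N.subtype) = p ^ k := by rw [card_map_of_injective N.subtype_injective, hH]
  rw [← e]
  refine card_dvd_ncard_of_closed _ fun x hx h hh u hu => ⟨?_, ?_⟩
  · obtain ⟨a, -, e'⟩ := brauer_conj_pow (mem_norm_invCore _ x) hu
      ((card_dvd (invCore_le _ x)).trans (e ▸ hd.trans (Nat.gcd_dvd_left _ _)))
    rw [conj_pow, e', hx.1]; simp
  · have h1 := (QuotientGroup.eq_one_iff _).2 (map_subtype_le H hh)
    have h2 := (QuotientGroup.eq_one_iff _).2 (map_subtype_le H (invCore_le _ x hu))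
    simp [h1, h2, hx.2]

/-- The equation `x ^ n = 1` has exactly `n` solutions. -/
structure FC (G : Type*) [Group G] (n : ℕ) : Prop where
  dvd : n ∣ Nat.card G
  eq : {x : G | x ^ n = 1}.ncard = n

theorem le_ncard_pow (h : n ∣ Nat.card G) : n ≤ {x : G | x ^ n = 1}.ncard :=
  Nat.le_of_dvd ((Set.ncard_pos).2 ⟨1, one_pow n⟩) (dvd_card_pow_eq_one h)

theorem le_ncard_pow' {H : Subgroup G} (h : n ∣ Nat.card H) : n ≤ {x : G | x ∈ H ∧ x ^ n = 1}.ncard := by
  refine (le_ncard_pow h).trans_eq (Set.ncard_congr (fun x _ => (x : G)) (fun x hx => ⟨x.2, ?_⟩)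
    (fun a b _ _ e => Subtype.ext e) fun x hx => ⟨⟨x, hx.1⟩, Subtype.ext hx.2, rfl⟩)
  exact congrArg Subtype.val (show x ^ n = 1 from hx)

namespace FC

omit [Finite G] in
theorem of_equiv {G' : Type*} [Group G'] (h : FC G n) (e : G ≃* G') : FC G' n :=
  ⟨Nat.card_congr e.toEquiv ▸ h.dvd, (Set.ncard_congr (fun x _ => e x)
    (fun x hx => by rw [Set.mem_ofPred_eq, ← map_pow, show x ^ n = 1 from hx, map_one]) (fun a b _ _ h => e.injective h)
    fun y hy => ⟨e.symm y, by rw [Set.mem_ofPred_eq, ← map_pow, show y ^ n = 1 from hy, map_one], by simp⟩).symm.trans h.eq⟩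

variable (h : FC G n)
include h

theorem pos : 0 < n := Nat.pos_of_dvd_of_pos h.dvd Nat.card_pos

theorem mem {H : Subgroup G} (hH : n ∣ Nat.card H) {x : G} (hx : x ^ n = 1) : x ∈ H :=
  ((Set.eq_of_subset_of_ncard_le (fun _ hy => hy.2) (h.eq.le.trans (le_ncard_pow' hH))).ge hx).1

theorem coe_eq {H : Subgroup G} (hH : Nat.card H = n) : (H : Set G) = {x : G | x ^ n = 1} :=
  Set.Subset.antisymm (fun x hx => hH ▸ congrArg Subtype.val (pow_card_eq_one' (x := (⟨x, hx⟩ : H))))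
    fun _ hx => h.mem hH.symm.dvd hx

theorem normal {H : Subgroup G} (hH : Nat.card H = n) : H.Normal := ⟨fun x hx g => by
  rw [← SetLike.mem_coe, h.coe_eq hH, Set.mem_ofPred_eq] at hx ⊢
  rw [conj_pow, hx]; simp⟩

theorem quot (N : Subgroup G) [N.Normal] :
    FC (G ⧸ N) (n / n.gcd (Nat.card N)) ∧ FC N (n.gcd (Nat.card N)) := by
  classical
  set d := n.gcd (Nat.card N) with hd
  set u := n / d with hu
  have hg : 0 < d := Nat.gcd_pos_of_pos_right _ Nat.card_pos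
  have h1 : u * d = n := Nat.div_mul_cancel (Nat.gcd_dvd_left _ _)
  have h1' : Nat.card N / d * d = Nat.card N := Nat.div_mul_cancel (Nat.gcd_dvd_right _ _)
  have hc : u.Coprime (Nat.card N / d) := Nat.coprime_div_gcd_div_gcd hg
  have h2 : u ∣ Nat.card (G ⧸ N) := by
    refine hc.dvd_of_dvd_mul_right (Nat.dvd_of_mul_dvd_mul_right hg ?_)
    rw [h1, mul_assoc, h1', ← card_eq_card_quotient_mul_card_subgroup]; exact h.dvd
  have h3 : ∀ c : G ⧸ N, c ^ u = 1 → d ≤ {y : G | y ^ n = 1 ∧ (y : G ⧸ N) = c}.ncard := fun c hc' => by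
    refine Nat.le_of_dvd ((Set.ncard_pos).2 ?_) (gcd_dvd_ncard_coset N n c)
    obtain ⟨x, rfl⟩ := QuotientGroup.mk_surjective c
    have h5 : (x ^ u) ^ Nat.card N = 1 :=
      congrArg Subtype.val (pow_card_eq_one' (x := (⟨x ^ u, (QuotientGroup.eq_one_iff _).1 hc'⟩ : N)))
    obtain ⟨a, ha1, ha2⟩ := Nat.chineseRemainder hc 1 0
    obtain ⟨b, rfl⟩ := (Nat.modEq_zero_iff_dvd).1 ha2
    refine ⟨x ^ (Nat.card N / d * b), ?_, ?_⟩
    · rw [← pow_mul, ← h1, show Nat.card N / d * b * (u * d) = u * (Nat.card N / d * d) * b by ring, h1', pow_mul,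
        pow_mul, h5, one_pow]
    · rw [QuotientGroup.mk_pow, pow_eq_pow_mod _ hc', ha1, ← pow_eq_pow_mod _ hc', pow_one]
  haveI := Fintype.ofFinite G
  haveI := Fintype.ofFinite (G ⧸ N)
  set s : Finset (G ⧸ N) := {c | c ^ u = 1} with hs
  have hs' : {c : G ⧸ N | c ^ u = 1}.ncard = s.card := by rw [hs, ← Set.ncard_coe_finset]; simp
  have h4' : ∑ c ∈ s, {y : G | y ^ n = 1 ∧ (y : G ⧸ N) = c}.ncard ≤ n := by
    have e : ∀ c : G ⧸ N, {y : G | y ^ n = 1 ∧ (y : G ⧸ N) = c}.ncard =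
        ({y ∈ ({y | y ^ n = 1} : Finset G) | (y : G ⧸ N) = c} : Finset G).card := fun c => by
      rw [← Set.ncard_coe_finset]; simp
    simp_rw [e]
    rw [Finset.sum_card_fiberwise_eq_card_filter]
    refine (Finset.card_filter_le _ _).trans_eq ?_
    rw [← Set.ncard_coe_finset]; simpa using h.eq
  have h4 : ∑ c ∈ s, {y : G | y ^ n = 1 ∧ (y : G ⧸ N) = c}.ncard ≤ ∑ _c ∈ s, d := by
    rw [Finset.sum_const, smul_eq_mul, ← hs']
    exact (h4'.trans h1.ge).trans (Nat.mul_le_mul_right d (le_ncard_pow h2))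
  have h5 := (Finset.sum_eq_sum_iff_of_le fun c hc => h3 c (by simpa [hs] using hc)).1
    (le_antisymm (Finset.sum_le_sum fun c hc => h3 c (by simpa [hs] using hc)) h4)
  refine ⟨⟨h2, le_antisymm (Nat.le_of_mul_le_mul_right ?_ hg) (le_ncard_pow h2)⟩, Nat.gcd_dvd_right _ _, ?_⟩
  · rw [hs', h1, ← smul_eq_mul, ← Finset.sum_const]
    exact (Finset.sum_le_sum fun c hc => h3 c (by simpa [hs] using hc)).trans h4'
  · refine Eq.trans ?_ (h5 1 (by simp [hs])).symm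
    refine Set.ncard_congr (fun x _ => (x : G)) (fun x hx => ⟨?_, (QuotientGroup.eq_one_iff _).2 x.2⟩)
      (fun a b _ _ e => Subtype.ext e) fun x hx => ⟨⟨x, (QuotientGroup.eq_one_iff _).1 hx.2⟩, ?_, rfl⟩
    · rw [← h1, mul_comm, pow_mul, ← coe_pow, show x ^ d = 1 from hx]; simp
    · exact (pow_gcd_eq_one (a := (⟨x, _⟩ : N))).2 ⟨Subtype.ext hx.1, pow_card_eq_one'⟩

end FC

omit [Finite G] in
theorem card_comap_mk (N : Subgroup G) [N.Normal] (U : Subgroup (G ⧸ N)) :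
    Nat.card (U.comap (QuotientGroup.mk' N)) = Nat.card U * Nat.card N := by
  rw [mul_comm]; exact (Nat.card_congr (QuotientGroup.preimageMkEquivSubgroupProdSet N U)).trans (Nat.card_prod _ _)

/-- Every simple quotient of a subnormal subgroup satisfies `P`. -/
def CF (P : ∀ (S : Type u) [Group S], Prop) (G : Type u) [Group G] : Prop :=
  ∀ H : Subgroup G, H.IsSubnormal → ∀ (S : Type u) [Group S] (f : H →* S), Function.Surjective f →
    IsSimpleGroup S → P S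

theorem CF.normal {P : ∀ (S : Type u) [Group S], Prop} {G : Type u} [Group G] (h : CF P G) (N : Subgroup G)
    [hN : N.Normal] : CF P N := fun H hH S _ f hf hS =>
  h _ (hH.trans' hN.isSubnormal) S (f.comp (H.equivMapOfInjective _ N.subtype_injective).symm.toMonoidHom)
    (hf.comp (MulEquiv.surjective _)) hS

theorem CF.quot {P : ∀ (S : Type u) [Group S], Prop} {G : Type u} [Group G] (h : CF P G) (N : Subgroup G)
    [hN : N.Normal] : CF P (G ⧸ N) := fun H hH S _ f hf hS =>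
  h _ (hH.comap (QuotientGroup.mk' N)) S (f.comp ((QuotientGroup.mk' N).subgroupComap H))
    (hf.comp ((QuotientGroup.mk' N).subgroupComap_surjective_of_surjective H (QuotientGroup.mk'_surjective N))) hS

/-- Zemlin's reduction of Frobenius' conjecture to simple groups. -/
theorem exists_card_eq_of_simple {P : ∀ (S : Type u) [Group S], Prop}
    (hP : ∀ (S : Type u) [Group S] [Finite S] [IsSimpleGroup S], P S → ∀ n, FC S n → n = 1 ∨ n = Nat.card S)
    (G : Type u) [Group G] [Finite G] (h : CF P G) (n : ℕ) (hn : FC G n) : ∃ H : Subgroup G, Nat.card H = n := by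
  induction hk : Nat.card G using Nat.strong_induction_on generalizing G n with
  | _ k ih =>
  subst hk
  have lt : ∀ (N : Subgroup G) [N.Normal], N ≠ ⊥ → Nat.card (G ⧸ N) < Nat.card G := fun N _ h0 => by
    rw [card_eq_card_quotient_mul_card_subgroup N]
    exact lt_mul_of_one_lt_right Nat.card_pos (N.one_lt_card_iff_ne_bot.2 h0)
  by_cases hs : ∀ N : Subgroup G, N.Normal → N = ⊥ ∨ N = ⊤
  · rcases subsingleton_or_nontrivial G with h1 | h1
    · exact ⟨⊥, by rw [card_bot, eq_comm, ← Nat.dvd_one, ← Nat.card_of_subsingleton (1 : G)]; exact hn.dvd⟩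
    haveI : IsSimpleGroup G := ⟨hs⟩
    rcases hP G (h ⊤ .top G (Subgroup.subtype ⊤) topEquiv.surjective inferInstance) n hn with rfl | rfl
    exacts [⟨⊥, card_bot⟩, ⟨⊤, card_top⟩]
  push Not at hs
  obtain ⟨N, _, h0, h1⟩ := hs
  obtain ⟨K, hK⟩ := ih _ (by simpa using card_lt_of_lt h1.lt_top) N (h.normal N) _ (hn.quot N).2 rfl
  by_cases hd : n.gcd (Nat.card N) = 1
  · obtain ⟨U, hU⟩ := ih _ (lt N h0) _ (h.quot N) _ (hn.quot N).1 rfl
    rw [hd, Nat.div_one] at hU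
    have h6 : N ≤ U.comap (QuotientGroup.mk' N) := fun x hx => by simp [(QuotientGroup.eq_one_iff _).2 hx]
    have h7 : N.relIndex (U.comap (QuotientGroup.mk' N)) = n := Nat.eq_of_mul_eq_mul_left Nat.card_pos (by
      rw [BG.card_mul_relIndex h6, card_comap_mk, hU, mul_comm])
    obtain ⟨B, -, -, -, hB⟩ := Coprime.exists_complement h6 (by rw [normalizer_eq_top]; exact le_top)
      (by rw [h7]; exact Nat.Coprime.symm hd)
    exact ⟨B, hB.trans h7⟩
  have e : Nat.card (K.map N.subtype) = n.gcd (Nat.card N) := (card_map_of_injective N.subtype_injective).trans hK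
  haveI : (K.map N.subtype).Normal := ⟨fun x hx g => by
    obtain ⟨x, hx, rfl⟩ := hx
    refine ⟨⟨_, ‹N.Normal›.conj_mem _ x.2 g⟩, ?_, rfl⟩
    rw [(hn.quot N).2.coe_eq hK, Set.mem_ofPred_eq] at hx ⊢
    refine Subtype.ext ?_
    rw [coe_pow, conj_pow, ← coe_pow, hx]; simp⟩
  obtain ⟨U, hU⟩ := ih _ (lt (K.map N.subtype) fun h => hd (by rw [← e, h, card_bot])) _ (h.quot _) _ (hn.quot _).1 rfl
  refine ⟨_, (card_comap_mk _ U).trans ?_⟩
  rw [hU, e, Nat.gcd_eq_right (Nat.gcd_dvd_left _ _), Nat.div_mul_cancel (Nat.gcd_dvd_left _ _)]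

/-- The non-trivial solutions of `x ^ a = 1`. -/
def SS (G : Type*) [Group G] (a : ℕ) : Set G := {x | x ≠ 1 ∧ x ^ a = 1}

theorem FC.SS_le (h : FC G n) {a : ℕ} (ha : a ∣ n) : (SS G a).ncard + 1 ≤ n := by
  rw [← Set.ncard_insert_of_notMem (a := 1) fun h => h.1 rfl, ← h.eq]
  refine Set.ncard_le_ncard ?_
  obtain ⟨b, rfl⟩ := ha
  rintro _ (rfl | hx)
  · exact one_pow _
  · rw [Set.mem_ofPred_eq, pow_mul, hx.2, one_pow]

theorem SS_add {a b : ℕ} (h : a.Coprime b) : (SS G a).ncard + (SS G b).ncard ≤ (SS G (a * b)).ncard := by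
  rw [← Set.ncard_union_eq (Set.disjoint_left.2 fun x h1 h2 => h1.1 (by
    simpa [h.gcd_eq_one] using pow_gcd_eq_one.2 ⟨h1.2, h2.2⟩))]
  refine Set.ncard_le_ncard ?_
  rintro x (hx | hx)
  · exact ⟨hx.1, by rw [pow_mul, hx.2, one_pow]⟩
  · exact ⟨hx.1, by rw [mul_comm, pow_mul, hx.2, one_pow]⟩

theorem SS_lb {A D : Subgroup G} (h : ∀ y ∈ A, y ≠ 1 → ∀ g, g * y * g⁻¹ ∈ A → g ∈ D) {a b : ℕ}
    (hb : b ≤ {x | x ∈ A ∧ x ^ a = 1}.ncard) : (b - 1) * Nat.card G ≤ Nat.card D * (SS G a).ncard := by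
  classical
  haveI := Fintype.ofFinite G
  set T : Finset G := {x | x ≠ 1 ∧ x ∈ A ∧ x ^ a = 1} with hT
  have h1 : b - 1 ≤ T.card := by
    rw [Nat.sub_le_iff_le_add, ← Finset.card_insert_of_notMem (a := 1) (by simp [hT]), ← Set.ncard_coe_finset]
    refine hb.trans (Set.ncard_le_ncard fun x hx => ?_)
    by_cases e : x = 1 <;> simp [hT, e, hx.1, hx.2]
  refine (Nat.mul_le_mul_right _ h1).trans ?_
  rw [Nat.card_eq_fintype_card, ← Finset.card_univ, ← Finset.card_product, Set.ncard_eq_toFinset_card']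
  refine Finset.card_le_mul_card_image_of_maps_to (f := fun w : G × G => w.2 * w.1 * w.2⁻¹) (fun w hw => ?_) _
    fun s _ => ?_
  · simp only [hT, Finset.mem_product, Finset.mem_filter, Finset.mem_univ, true_and, and_true] at hw
    exact Set.mem_toFinset.2 ⟨by simpa using hw.1, by rw [conj_pow, hw.2.2]; simp⟩
  · rcases Finset.eq_empty_or_nonempty {w ∈ T ×ˢ (Finset.univ : Finset G) | w.2 * w.1 * w.2⁻¹ = s} with e | ⟨v, hv⟩
    · simp [e]
    rw [Nat.card_eq_fintype_card, Fintype.card_subtype]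
    simp only [hT, Finset.mem_product, Finset.mem_filter, Finset.mem_univ, true_and, and_true] at hv
    refine Finset.card_le_card_of_injOn (fun w => v.2⁻¹ * w.2) (fun w hw => ?_) fun w hw w' hw' e => ?_
    · simp only [hT, Finset.coe_filter, Finset.mem_product, Finset.mem_filter, Finset.mem_univ, true_and, and_true,
        Set.mem_ofPred_eq] at hw ⊢
      refine h _ hw.1.2.1 hw.1.1 _ ?_
      rw [show v.2⁻¹ * w.2 * w.1 * (v.2⁻¹ * w.2)⁻¹ = v.2⁻¹ * (w.2 * w.1 * w.2⁻¹) * v.2 by group, hw.2, ← hv.2]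
      simpa [mul_assoc] using hv.1.2.1
    · have e' : w.2 = w'.2 := mul_left_cancel e
      have h2 := (Finset.mem_filter.1 hw).2.trans (Finset.mem_filter.1 hw').2.symm
      rw [e'] at h2
      exact Prod.ext (by simpa using h2) e'

theorem RR_two {S R : Subgroup G} (h : RR 2 S R) (s : ℕ) :
    2 ^ (s + 3) ∣ {x | x ∈ S ∧ orderOf x = 2 ^ (s + 3)}.ncard := by
  have ho : ∀ x : G, orderOf x = 2 ^ (s + 3) → orderOf (x ^ 2) = 2 ^ (s + 2) := fun x hx => by
    rw [orderOf_pow_of_dvd two_ne_zero (hx ▸ dvd_pow_self 2 (by omega)), hx, pow_succ, Nat.mul_div_cancel _ two_pos]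
  have key : ∀ x ∈ S, orderOf x = 2 ^ (s + 3) → ∀ y, x⁻¹ * y ∈ zpowers (x ^ 2) ⊔ R →
      (y ∈ S ∧ orderOf y = 2 ^ (s + 3)) ∧ zpowers (y ^ 2) ⊔ R = zpowers (x ^ 2) ⊔ R := fun x hx e y hy => by
    obtain ⟨_, ⟨i, rfl⟩, r, hr, e1⟩ := (mem_sup_right_norm ((zpowers_le.2 (pow_mem hx 2)).trans h.norm)).1 hy
    obtain rfl : y = x ^ (1 + 2 * i) * r := by
      rw [zpow_add, zpow_mul, zpow_one, zpow_ofNat, mul_assoc, e1, mul_inv_cancel_left]
    set w := x ^ (1 + 2 * i) with hw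
    have hwS : w ∈ S := zpow_mem hx _
    have h1 : zpowers w = zpowers x := by
      refine le_antisymm (zpowers_le.2 (zpow_mem_zpowers _ _)) (zpowers_le.2 (mem_zpowers_zpow_iff.2 ?_))
      rw [e]
      refine ((Nat.prime_two.coprime_iff_not_dvd.2 fun h3 => ?_).pow_left _).symm
      omega
    have h2 : orderOf w = 2 ^ (s + 3) := by rw [← Nat.card_zpowers, h1, Nat.card_zpowers, e]
    have h3 : w⁻¹ * r * w * r ∈ R := mul_mem (conj_mem_of_norm' (h.norm hwS) hr) hr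
    have h4 : (w * r) ^ 2 = w ^ 2 * (w⁻¹ * r * w * r) := by simp [pow_two, mul_assoc]
    have h5 : ((w * r) ^ 2) ^ 2 = (w ^ 2) ^ 2 := by
      rw [h4, h.mul_pow (pow_mem hwS 2) h3 (Or.inr (h.pow_cent hwS))]
    have h6 : zpowers (w ^ 2) = zpowers (x ^ 2) := by
      refine eq_of_le_of_card_le (zpowers_le.2 ⟨1 + 2 * i, ?_⟩) (by rw [Nat.card_zpowers, Nat.card_zpowers, ho _ e, ho _ h2])
      simp only [hw]
      rw [← zpow_natCast, ← zpow_natCast, ← zpow_mul, ← zpow_mul, mul_comm]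
    refine ⟨⟨mul_mem hwS (h.le hr), orderOf_eq_prime_pow (fun h7 => ?_) ?_⟩, ?_⟩
    · rw [pow_succ', pow_succ', pow_mul, pow_mul, h5, ← pow_mul, ← pow_mul, ← orderOf_dvd_iff_pow_eq_one, h2, ← pow_succ',
        ← pow_succ', Nat.pow_dvd_pow_iff_le_right one_lt_two] at h7
      omega
    · rw [pow_succ', pow_succ', pow_mul, pow_mul, h5, ← pow_mul, ← pow_mul, ← pow_succ', ← pow_succ', ← h2,
        pow_orderOf_eq_one]
    · rw [← h6, h4]
      refine le_antisymm (sup_le (zpowers_le.2 (mul_mem (mem_sup_left (mem_zpowers _)) (mem_sup_right h3))) le_sup_right)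
        (sup_le (zpowers_le.2 ?_) le_sup_right)
      exact (mul_mem_cancel_right (mem_sup_right h3)).1 (mem_sup_left (mem_zpowers _))
  refine dvd_ncard_of_classes (fun x => {y | x⁻¹ * y ∈ zpowers (x ^ 2) ⊔ R}) (fun x _ => by simp)
    (fun x hx y hy => (key x hx.1 hx.2 y hy).1) (fun x hx y hy => ?_) fun x hx => ?_
  · rw [(key x hx.1 hx.2 y hy).2]
    have hy' : x⁻¹ * y ∈ zpowers (x ^ 2) ⊔ R := hy
    exact Set.ext fun z => ⟨fun hz : y⁻¹ * z ∈ _ => by simpa [mul_assoc] using mul_mem hy' hz,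
      fun hz : x⁻¹ * z ∈ _ => by simpa [mul_assoc] using mul_mem (inv_mem hy') hz⟩
  · rw [ncard_mul_left]
    have h3 := Core.card_sup_mul_card_inf ((zpowers_le.2 (pow_mem hx.1 2)).trans h.norm)
    have h4 : zpowers (x ^ 2) ⊓ R < R := inf_lt_right.2 fun h4 => h.not_cyclic (cyclic_of_le inferInstance h4)
    obtain ⟨j, -, e⟩ := (Nat.dvd_prime_pow Nat.prime_two).1 (h.card ▸ card_dvd h4.le)
    have h5 := card_lt_of_lt h4
    rw [e, h.card, Nat.pow_lt_pow_iff_right one_lt_two] at h5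
    rw [e, Nat.card_zpowers, ho x hx.2, h.card, ← pow_add] at h3
    refine Nat.dvd_of_mul_dvd_mul_right (pow_pos two_pos j) ?_
    rw [h3, ← pow_add]
    exact pow_dvd_pow 2 (by omega)

variable [hp : Fact p.Prime]

theorem dvd_card_cyclic' {S : Subgroup G} (hS : IsPGroup p S) (hc : ¬ IsCyclic S) (hm : ¬ IsMC p S) (s : ℕ) :
    p ∣ (fs fun A => A ≤ S ∧ IsCyclic A ∧ Nat.card A = p ^ (s + 2)).card := by
  by_cases h2 : p ≠ 2
  · exact dvd_card_cyclic hS hc h2 s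
  obtain rfl : p = 2 := not_not.1 h2
  obtain ⟨R, h⟩ := exists_RR hS hc hm
  have h1 : 2 ^ (s + 2) ∣ {x | x ∈ S ∧ orderOf x = 2 ^ (s + 2)}.ncard := by
    rcases s with _ | s
    · have h3 := h.sq_dvd_ncard hm
      have h4 : 2 ^ 2 ∣ {x | x ∈ S ∧ x ^ 2 ^ 2 = 1}.ncard := by
        refine (dvd_card_pow_eq_one (h.card ▸ card_dvd h.le)).trans (dvd_of_eq (Set.ncard_congr
          (s := {x : S | x ^ 2 ^ 2 = 1}) (fun x _ => (x : G))
          (fun x hx => ⟨x.2, ?_⟩) (fun a b _ _ e => Subtype.ext e) fun x hx => ⟨⟨x, hx.1⟩, Subtype.ext hx.2, rfl⟩))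
        exact congrArg Subtype.val (show x ^ 2 ^ 2 = 1 from hx)
      have h5 : {x | x ∈ S ∧ x ^ 2 ^ 2 = 1} = {x | x ∈ S ∧ x ^ 2 = 1} ∪ {x | x ∈ S ∧ orderOf x = 2 ^ (0 + 2)} := by
        ext x
        refine ⟨fun hx => ?_, ?_⟩
        · by_cases e : x ^ 2 = 1
          exacts [Or.inl ⟨hx.1, e⟩, Or.inr ⟨hx.1, orderOf_eq_prime_pow (by simpa using e) hx.2⟩]
        · rintro (hx | hx)
          exacts [⟨hx.1, by rw [pow_two 2, pow_mul, hx.2, one_pow]⟩, ⟨hx.1, hx.2 ▸ pow_orderOf_eq_one x⟩]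
      rw [h5, Set.ncard_union_eq (Set.disjoint_left.2 fun x a b => by
        have := orderOf_dvd_of_pow_eq_one a.2
        rw [b.2] at this; omega)] at h4
      exact (Nat.dvd_add_right h3).1 h4
    · exact RR_two h s
  rw [ncard_orderOf_eq, Nat.totient_prime_pow_succ hp.out, pow_succ, mul_assoc] at h1
  simpa [pow_succ] using Nat.dvd_of_mul_dvd_mul_left (pow_pos two_pos _) h1

theorem miller' {P : Subgroup G} (hP : Syl p P ⊤) (hc : ¬ IsCyclic P) (h2 : ¬ IsMC p P) (s : ℕ) {m : ℕ}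
    (hm : p.Coprime m) : p ^ (s + 2) ∣ {g : G | orderOf g = p ^ (s + 2) * m}.ncard := by
  rw [ncard_orderOf_mul (hm.pow_left _), Nat.totient_prime_pow_succ hp.out, pow_succ p (s + 1), mul_assoc]
  refine Nat.mul_dvd_mul_left _ (Dvd.dvd.mul_left ?_ _)
  letI : MulAction G (Subgroup G × G) :=
    { smul := fun g w => (g ⋆ w.1, g * w.2 * g⁻¹), one_smul := fun w => Prod.ext (conj_one _)
        (show 1 * w.2 * 1⁻¹ = w.2 by simp)
      mul_smul := fun a b w => Prod.ext (conj_conj a b _).symm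
        (show a * b * w.2 * (a * b)⁻¹ = a * (b * w.2 * b⁻¹) * a⁻¹ by group) }
  rw [← pow_succ, ← Nat.modEq_zero_iff_dvd]
  refine (Perm.ncard_modEq_fixed hP.pgroup (Set.toFinite _) fun u _ w hw => ?_).trans ?_
  · refine ⟨⟨(cyclic_conj u).2 hw.1.1, (card_conj u _).trans hw.1.2⟩, (Inv.orderOf_conj' _ _).trans hw.2.1, ?_⟩
    change u * w.2 * u⁻¹ ∈ 𝐂(u ⋆ w.1)
    rw [← conj_centralizer, conj_mem_conj]; exact hw.2.2
  have h1 := (card_fs_modEq_fixed hP.pgroup (Φ := fun A => A ≤ P ∧ IsCyclic A ∧ Nat.card A = p ^ (s + 2))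
    fun g hg A hA => ⟨conj_le_of_mem hA.1 hg, (cyclic_conj g).2 hA.2.1, (card_conj g _).trans hA.2.2⟩).symm.trans
    (Nat.modEq_zero_iff_dvd.2 (dvd_card_cyclic' hP.pgroup hc h2 s))
  rw [card_fs'] at h1
  have h3 := h1.mul_right {y : G | orderOf y = m ∧ y ∈ 𝐂(P)}.ncard
  rw [zero_mul, ← Set.ncard_prod] at h3
  convert h3 using 2
  ext ⟨A, y⟩
  refine ⟨fun ⟨h4, h5⟩ => ?_, fun ⟨h4, h5⟩ => ⟨⟨h4.1.2, h5.1, cent_anti h4.1.1 h5.2⟩, fun u hu => Prod.ext
    (conj_eq_of_norm (h4.2 hu)) (mul_inv_eq_of_eq_mul (mem_cent.1 h5.2 u hu))⟩⟩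
  have h6 : P ≤ 𝐍(A) := fun u hu => norm_of_conj_eq (congrArg Prod.fst (h5 u hu))
  exact ⟨⟨⟨hP.ge_of_norm_p le_top (IsPGroup.of_card h4.1.2) h6, h4.1⟩, h6⟩, h4.2.1,
    mem_cent.2 fun u hu => eq_mul_of_mul_inv_eq (congrArg Prod.snd (h5 u hu))⟩

/-- If `p ^ a` exactly divides `n`, then the numbers of elements of order `p ^ (a + 1) * j` are not all divisible by
`p ^ (a + 1)`. -/
theorem FC.exists_not_dvd (h : FC G n) (hd : p * n ∣ Nat.card G) : ∃ j, p.Coprime j ∧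
    ¬ p ^ (n.factorization p + 1) ∣ {g : G | orderOf g = p ^ (n.factorization p + 1) * j}.ncard := by
  by_contra! hc
  obtain ⟨a, m, hm, rfl⟩ := Nat.exists_eq_pow_mul_and_not_dvd h.pos.ne' p hp.out.ne_one
  have m0 : m ≠ 0 := by rintro rfl; simp at hm
  have ha : (p ^ a * m).factorization p = a := by
    simp [Nat.factorization_mul (pow_ne_zero _ hp.out.ne_zero) m0, hp.out.factorization_pow,
      Nat.factorization_eq_zero_of_not_dvd hm]
  rw [ha] at hc
  have h1 : p ^ (a + 1) ∣ {x : G | x ^ (p * (p ^ a * m)) = 1 ∧ x ^ (p ^ a * m) ≠ 1}.ncard := by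
    have key : ∀ x : G, x ^ (p * (p ^ a * m)) = 1 ∧ x ^ (p ^ a * m) ≠ 1 ↔
        orderOf x ∣ p * (p ^ a * m) ∧ ¬ orderOf x ∣ p ^ a * m := fun x => by simp [orderOf_dvd_iff_pow_eq_one]
    refine dvd_ncard_of_classes (fun x => {y | orderOf y = orderOf x}) (fun _ _ => rfl)
      (fun x hx y hy => by rw [Set.mem_ofPred_eq, key] at hx ⊢; rwa [show orderOf y = _ from hy])
      (fun x _ y hy => by rw [show orderOf y = _ from hy]) fun x hx => ?_
    obtain ⟨h2, h3⟩ := (key x).1 hx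
    rw [← mul_assoc, ← pow_succ'] at h2
    obtain ⟨u, v, hu, hv, e⟩ := (Nat.dvd_mul).1 h2
    obtain ⟨i, hi, rfl⟩ := (Nat.dvd_prime_pow hp.out).1 hu
    obtain rfl : i = a + 1 := by
      by_contra hne
      exact h3 (e ▸ Nat.mul_dvd_mul (pow_dvd_pow p (by omega)) hv)
    rw [← e]
    exact hc v (hp.out.coprime_iff_not_dvd.2 fun h => hm (h.trans hv))
  have h2 : p * (p ^ a * m) ∣ {x : G | x ^ (p * (p ^ a * m)) = 1}.ncard := dvd_card_pow_eq_one hd
  have h3 : {x : G | x ^ (p * (p ^ a * m)) = 1} =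
      {x : G | x ^ (p ^ a * m) = 1} ∪ {x : G | x ^ (p * (p ^ a * m)) = 1 ∧ x ^ (p ^ a * m) ≠ 1} := by
    ext x
    by_cases e : x ^ (p ^ a * m) = 1 <;> simp [e, mul_comm p, pow_mul x (p ^ a * m)]
  rw [h3, Set.ncard_union_eq (Set.disjoint_left.2 fun x a b => b.2 a), h.eq] at h2
  have h4 := (Nat.dvd_add_left h1).1 ((Dvd.intro m (by ring)).trans h2)
  rw [pow_succ] at h4
  exact hm (Nat.dvd_of_mul_dvd_mul_left (pow_pos hp.out.pos a) h4)

theorem FC.exists_orderOf (h : FC G n) (hd : p * n ∣ Nat.card G) :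
    ∃ x : G, orderOf x = p ^ (n.factorization p + 1) := by
  obtain ⟨j, -, hj⟩ := h.exists_not_dvd hd
  obtain ⟨x, hx⟩ := (Set.nonempty_of_ncard_ne_zero fun e => hj (e ▸ dvd_zero _) :
    {g : G | orderOf g = p ^ (n.factorization p + 1) * j}.Nonempty)
  have j0 : j ≠ 0 := by rintro rfl; exact (orderOf_pos x).ne' (by simpa using hx)
  exact ⟨x ^ j, by rw [orderOf_pow_of_dvd j0 (hx ▸ dvd_mul_left _ _), hx, Nat.mul_div_cancel _ (Nat.pos_of_ne_zero j0)]⟩

theorem FC.cyclic_or (h : FC G n) (hd : p * n ∣ Nat.card G) (hn : p ∣ n) {P : Subgroup G} (hP : Syl p P ⊤) :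
    IsCyclic P ∨ IsMC p P := by
  by_contra! hc
  obtain ⟨j, h1, hj⟩ := h.exists_not_dvd hd
  obtain ⟨s, hs⟩ := Nat.exists_eq_succ_of_ne_zero (hp.out.factorization_pos_of_dvd h.pos.ne' hn).ne'
  rw [hs] at hj
  exact hj (miller' hP hc.1 hc.2 s h1)

end Cfsg.Lib.NG
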